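import Cfsg.Agent.H904.L34.Unit
import Cfsg.Agent.SporadicA.FieldFour

/-!
# S5917: the elements of order 3 of the unitary group form a subgroup (helper525)

`exists_E` : there is a subgroup `E` with `g ∈ E ↔ (hact g 1 = 1 ∧ g ^ 3 = 1)`;
`VE_iff` : the vectors fixed by `E` are the vectors fixed by `g1`, `g2`.
-/

set_option autoImplicit false
set_option linter.unusedSectionVars false

namespace Cfsg.Agent.H525.L34.EExp

open Matrix Cfsg.Agent.H691.L34 Cfsg.Agent.H904.L34 Cfsg.Agent.SporadicA.FieldFour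

set_option maxRecDepth 100000 in
theorem data4 : ∀ a b c d e f : F4, a ^ 3 + b ^ 3 + c ^ 3 = 1 → d ^ 3 + e ^ 3 + f ^ 3 = 1 →
    a * d ^ 2 + b * e ^ 2 + c * f ^ 2 = 0 → a + e + (a * e + b * d) ^ 2 = 0 →
    (b = 0 ∧ c = 0 ∧ d = 0 ∧ f = 0) ∨ (a = 0 ∧ c = 0 ∧ d = 0 ∧ e = 0) ∨ (a = 0 ∧ b = 0 ∧ e = 0 ∧ f = 0) := by
  decide +kernel

variable {F : Type} [Field F] [Fintype F]

theorem data (hF : Fintype.card F = 4) (a b c d e f : F) (h1 : a ^ 3 + b ^ 3 + c ^ 3 = 1)
    (h2 : d ^ 3 + e ^ 3 + f ^ 3 = 1) (h3 : a * d ^ 2 + b * e ^ 2 + c * f ^ 2 = 0)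
    (h4 : a + e + (a * e + b * d) ^ 2 = 0) :
    (b = 0 ∧ c = 0 ∧ d = 0 ∧ f = 0) ∨ (a = 0 ∧ c = 0 ∧ d = 0 ∧ e = 0) ∨ (a = 0 ∧ b = 0 ∧ e = 0 ∧ f = 0) := by
  let σ : F ≃+* F4 := FiniteField.ringEquivOfCardEq (hF.trans F4.card_eq.symm)
  have h := data4 (σ a) (σ b) (σ c) (σ d) (σ e) (σ f)
    (by rw [← map_pow, ← map_pow, ← map_pow, ← map_add, ← map_add, h1, map_one])
    (by rw [← map_pow, ← map_pow, ← map_pow, ← map_add, ← map_add, h2, map_one])
    (by rw [← map_pow, ← map_pow, ← map_pow, ← map_mul, ← map_mul, ← map_mul, ← map_add, ← map_add, h3, map_zero])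
    (by rw [← map_mul, ← map_mul, ← map_add, ← map_add, ← map_pow, ← map_add, h4, map_zero])
  simpa only [EmbeddingLike.map_eq_zero_iff] using h

/-- the support of a matrix lies in a diagonal -/
def Mo (X : M3 F) : Prop := ∃ k : Fin 3, ∀ i j, X i j ≠ 0 → j = i + k

theorem Mo_one : Mo (1 : M3 F) := ⟨0, fun i j h => by
  by_contra hne
  rw [add_zero] at hne
  exact h (Matrix.one_apply_ne fun e => hne e.symm)⟩

theorem Mo_mul {X Y : M3 F} (hX : Mo X) (hY : Mo Y) : Mo (X * Y) := by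
  obtain ⟨k, hk⟩ := hX
  obtain ⟨l, hl⟩ := hY
  refine ⟨k + l, fun i j h => ?_⟩
  rw [Matrix.mul_apply] at h
  obtain ⟨m, -, hm⟩ := Finset.exists_ne_zero_of_sum_ne_zero h
  have h1 := hk i m fun e => hm (by rw [e, zero_mul])
  have h2 := hl m j fun e => hm (by rw [e, mul_zero])
  rw [h2, h1, add_assoc]

theorem Mo_ct {X : M3 F} (hX : Mo X) : Mo (ct X) := by
  obtain ⟨k, hk⟩ := hX
  refine ⟨-k, fun i j h => ?_⟩
  have h1 := hk j i fun e => h (by
    show (X j i) ^ 2 = 0
    rw [e]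
    exact zero_pow two_ne_zero)
  rw [h1, add_neg_cancel_right]

theorem Mo_pow {X : M3 F} (hX : Mo X) (n : ℕ) : Mo (X ^ n) := by
  induction n with
  | zero => rw [pow_zero]; exact Mo_one
  | succ n ih => rw [pow_succ]; exact Mo_mul ih hX

theorem unit_eq {g : G3 F} (hg : hact g (1 : M3 F) = 1) : g.1 * ct g.1 = 1 := by
  rw [hact_def, Matrix.mul_one] at hg
  exact hg

theorem inv_eq {g : G3 F} (hg : hact g (1 : M3 F) = 1) : (g⁻¹ : G3 F).1 = ct g.1 := by
  have h1 := unit_eq hg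
  have h2 : (g⁻¹ : G3 F).1 * g.1 = 1 := by
    rw [← co_mul, inv_mul_cancel, co_one]
  calc (g⁻¹ : G3 F).1 = (g⁻¹ : G3 F).1 * (g.1 * ct g.1) := by rw [h1, Matrix.mul_one]
    _ = ct g.1 := by rw [← Matrix.mul_assoc, h2, Matrix.one_mul]

/-- the cube of a matrix with support in a diagonal is diagonal -/
theorem cube_diag {X : M3 F} (hX : Mo X) (i j : Fin 3) (h : i ≠ j) : (X ^ 3) i j = 0 := by
  by_contra hne
  obtain ⟨k, hk⟩ := hX
  rw [pow_three', Matrix.mul_apply] at hne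
  obtain ⟨m, -, hm⟩ := Finset.exists_ne_zero_of_sum_ne_zero hne
  have h1 := hk m j fun e => hm (by rw [e, mul_zero])
  have h2 : (X * X) i m ≠ 0 := fun e => hm (by rw [e, zero_mul])
  rw [Matrix.mul_apply] at h2
  obtain ⟨l, -, hl⟩ := Finset.exists_ne_zero_of_sum_ne_zero h2
  have h3 := hk i l fun e => hl (by rw [e, zero_mul])
  have h4 := hk l m fun e => hl (by rw [e, mul_zero])
  apply h
  have key : ∀ i k : Fin 3, i = i + k + k + k := by decide
  rw [h1, h4, h3]
  exact key i k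

/-- a unitary matrix with support in a diagonal has order dividing three -/
theorem cube_of_Mo (hF : Fintype.card F = 4) {g : G3 F} (hg : hact g (1 : M3 F) = 1) (h : Mo g.1) : g ^ 3 = 1 := by
  have h12 := pow_twelve hF hg
  have hR : hact (g ^ 3) (1 : M3 F) = 1 := (RR hF).pow_mem hg 3
  have hu := unit_eq hR
  have hd : (g ^ 3 : G3 F).1 = Matrix.diagonal fun i => (g ^ 3 : G3 F).1 i i := by
    ext i j
    by_cases hij : i = j
    · subst hij
      rw [Matrix.diagonal_apply_eq]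
    · rw [Matrix.diagonal_apply_ne _ hij, co_pow]
      exact cube_diag h i j hij
  have hne : ∀ i, (g ^ 3 : G3 F).1 i i ≠ 0 := by
    intro i h0
    have h1 := (g ^ 3 : G3 F).2
    rw [hd, Matrix.det_diagonal] at h1
    have h2 : ∏ i : Fin 3, (g ^ 3 : G3 F).1 i i = 0 := Finset.prod_eq_zero (Finset.mem_univ i) h0
    rw [h2] at h1
    exact zero_ne_one h1
  have h9 : g ^ 9 = 1 := by
    have e : g ^ 9 = (g ^ 3) ^ 3 := by rw [← pow_mul]
    rw [e]
    apply Subtype.ext
    rw [co_pow, hd, Matrix.diagonal_pow, co_one]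
    have e2 : (fun i => (g ^ 3 : G3 F).1 i i) ^ 3 = fun _ => (1 : F) := by
      funext i
      exact pow_three hF (hne i)
    rw [e2, Matrix.diagonal_one]
  have e : g ^ 12 = g ^ 9 * g ^ 3 := by rw [← pow_add]
  rw [e, h9, one_mul] at h12
  exact h12

/-- a unitary matrix of order three has its support in a diagonal -/
theorem Mo_of_cube (hF : Fintype.card F = 4) {g : G3 F} (hg : hact g (1 : M3 F) = 1) (h3 : g ^ 3 = 1) : Mo g.1 := by
  set A : M3 F := g.1 with hA
  have hu : A * ct A = 1 := unit_eq hg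
  have hadj : A.adjugate = ct A := by
    have h2 : A * A.adjugate = 1 := by rw [Matrix.mul_adjugate, g.2, one_smul]
    have h3 : ct A * A = 1 := mul_eq_one_comm.1 hu
    calc A.adjugate = (ct A * A) * A.adjugate := by rw [h3, Matrix.one_mul]
      _ = ct A * (A * A.adjugate) := by rw [Matrix.mul_assoc]
      _ = ct A := by rw [h2, Matrix.mul_one]
  have hc := cayley A
  have e3 : A * A * A = 1 := by
    have h4 := congrArg Subtype.val h3
    rw [co_pow, co_one, pow_three'] at h4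
    exact h4
  rw [e3, g.2, one_smul] at hc
  have hneg : ∀ x : F, -x = x := neg_self hF
  have hdd : ∀ x : F, x + x = 0 := add_self' hF
  by_cases h0 : A.trace = 0
  · have ent : ∀ i j, ∑ m, A i m * (A j m) ^ 2 = (1 : M3 F) i j := by
      intro i j
      have h4 := congrFun (congrFun hu i) j
      rw [Matrix.mul_apply] at h4
      exact h4
    have a00 := ent 0 0
    have a11 := ent 1 1
    have a01 := ent 0 1
    rw [Fin.sum_univ_three] at a00 a11 a01
    rw [Matrix.one_apply_eq] at a00 a11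
    rw [Matrix.one_apply_ne (by decide)] at a01
    have b22 : (A 2 2) ^ 2 = A 0 0 * A 1 1 - A 0 1 * A 1 0 := by
      have h4 := congrFun (congrFun hadj 2) 2
      rw [Matrix.adjugate_fin_three] at h4
      have h5 : A 0 0 * A 1 1 - A 0 1 * A 1 0 = (A 2 2) ^ 2 := by simpa [ct] using h4
      exact h5.symm
    have b20 : (A 2 0) ^ 2 = A 0 1 * A 1 2 - A 0 2 * A 1 1 := by
      have h4 := congrFun (congrFun hadj 0) 2
      rw [Matrix.adjugate_fin_three] at h4
      have h5 : A 0 1 * A 1 2 - A 0 2 * A 1 1 = (A 2 0) ^ 2 := by simpa [ct] using h4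
      exact h5.symm
    have b21 : (A 2 1) ^ 2 = -(A 0 0 * A 1 2) + A 0 2 * A 1 0 := by
      have h4 := congrFun (congrFun hadj 1) 2
      rw [Matrix.adjugate_fin_three] at h4
      have h5 : -(A 0 0 * A 1 2) + A 0 2 * A 1 0 = (A 2 1) ^ 2 := by simpa [ct] using h4
      exact h5.symm
    have c22 : A 2 2 = (A 0 0 * A 1 1 + A 0 1 * A 1 0) ^ 2 := by
      rw [← pow_four hF (A 2 2)]
      have : (A 2 2) ^ 4 = ((A 2 2) ^ 2) ^ 2 := by ring
      rw [this, b22, sub_eq_add_neg, hneg]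
    have tr : A 0 0 + A 1 1 + (A 0 0 * A 1 1 + A 0 1 * A 1 0) ^ 2 = 0 := by
      rw [← c22]
      rw [Matrix.trace, Fin.sum_univ_three] at h0
      exact h0
    have sq0 : ∀ x : F, x ^ 2 = 0 → x = 0 := fun x hx => pow_eq_zero_iff two_ne_zero |>.1 hx
    rcases data hF (A 0 0) (A 0 1) (A 0 2) (A 1 0) (A 1 1) (A 1 2) (by linear_combination a00)
      (by linear_combination a11) a01 tr with ⟨k1, k2, k3, k4⟩ | ⟨k1, k2, k3, k4⟩ | ⟨k1, k2, k3, k4⟩
    · have z20 : A 2 0 = 0 := sq0 _ (by rw [b20, k1, k2]; ring)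
      have z21 : A 2 1 = 0 := sq0 _ (by rw [b21, k2, k4]; ring)
      refine ⟨0, fun i j h => ?_⟩
      fin_cases i <;> fin_cases j <;> first | rfl | exact absurd (by assumption) h
    · have z21 : A 2 1 = 0 := sq0 _ (by rw [b21, k1, k2]; ring)
      have z22 : A 2 2 = 0 := by rw [c22, k1, k3]; ring
      refine ⟨1, fun i j h => ?_⟩
      fin_cases i <;> fin_cases j <;> first | rfl | exact absurd (by assumption) h
    · have z20 : A 2 0 = 0 := sq0 _ (by rw [b20, k2, k3]; ring)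
      have z22 : A 2 2 = 0 := by rw [c22, k1, k2]; ring
      refine ⟨2, fun i j h => ?_⟩
      fin_cases i <;> fin_cases j <;> first | rfl | exact absurd (by assumption) h
  · -- scalar
    have h4 : A.trace • (A * A) = A.adjugate.trace • A := by
      have h5 : A.trace • (A * A) - A.adjugate.trace • A = 0 := by
        have h6 := sub_eq_zero.2 hc.symm
        rwa [add_sub_cancel_right] at h6
      exact sub_eq_zero.1 h5
    have h5 : A.trace • A = A.adjugate.trace • (1 : M3 F) := by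
      have h6 := congrArg (· * ct A) h4
      have h7 : (A.trace • (A * A)) * ct A = (A.adjugate.trace • A) * ct A := h6
      rw [Matrix.smul_mul, Matrix.mul_assoc, hu, Matrix.mul_one, Matrix.smul_mul, hu] at h7
      exact h7
    refine ⟨0, fun i j h => ?_⟩
    rw [add_zero]
    by_contra hne
    apply h
    have h6 := congrFun (congrFun h5 i) j
    rw [Matrix.smul_apply, Matrix.smul_apply, Matrix.one_apply_ne (fun e => hne e.symm), smul_zero, smul_eq_mul] at h6
    exact (mul_eq_zero.1 h6).resolve_left h0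

/-- **the subgroup `E = 3¹⁺²`** -/
theorem exists_E (hF : Fintype.card F = 4) :
    ∃ E : Subgroup (G3 F), ∀ g : G3 F, g ∈ E ↔ (hact g (1 : M3 F) = 1 ∧ g ^ 3 = 1) := by
  refine ⟨
    { carrier := {g | hact g (1 : M3 F) = 1 ∧ Mo g.1}
      one_mem' := ⟨(RR hF).one_mem, Mo_one⟩
      mul_mem' := fun {a b} ha hb => ⟨(RR hF).mul_mem ha.1 hb.1, Mo_mul ha.2 hb.2⟩
      inv_mem' := fun {a} ha => ⟨(RR hF).inv_mem ha.1, ?_⟩ }, fun g => ⟨fun h => ⟨h.1, cube_of_Mo hF h.1 h.2⟩,
    fun h => ⟨h.1, Mo_of_cube hF h.1 h.2⟩⟩⟩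
  rw [inv_eq ha.1]
  exact Mo_ct ha.2

variable {V : Type} [AddCommGroup V] [Module (ZMod 2) V] {ρ : Representation (ZMod 2) (G3 F) V}

/-- the vectors fixed by `E` -/
theorem VE_iff (hF : Fintype.card F = 4) {w : F} (hw : w ^ 2 + w + 1 = 0) (hc : CT ρ) {E : Subgroup (G3 F)}
    (hE : ∀ g : G3 F, g ∈ E ↔ (hact g (1 : M3 F) = 1 ∧ g ^ 3 = 1)) {x : V} :
    x ∈ VE ρ E ↔ ρ (g1 w hw) x = x ∧ ρ g2 x = x := by
  constructor
  · intro h
    exact ⟨mem_VE.1 h _ ((hE _).2 ⟨mem_R_g1 hw hF, g1_cube hw⟩), mem_VE.1 h _ ((hE _).2 ⟨mem_R_g2 hF, g2_cube⟩)⟩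
  · rintro ⟨h1, h2⟩
    rw [mem_VE]
    intro g hg
    let T : Subgroup (G3 F) :=
      { carrier := {g | ρ g x = x}
        one_mem' := by show ρ 1 x = x; rw [map_one]; rfl
        mul_mem' := by
          intro a b ha hb
          show ρ (a * b) x = x
          rw [map_mul]
          show ρ a (ρ b x) = x
          rw [show ρ b x = x from hb, show ρ a x = x from ha]
        inv_mem' := by
          intro a ha
          show ρ a⁻¹ x = x
          have h : ρ a⁻¹ (ρ a x) = x := by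
            have h3 : ρ (a⁻¹ * a) x = x := by rw [inv_mul_cancel, map_one]; rfl
            rwa [map_mul] at h3
          rwa [show ρ a x = x from ha] at h }
    exact E_le hw hF hE (T := T) (hc _ (s0_center hw) x) h1 h2 hg

end Cfsg.Agent.H525.L34.EExp
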